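import Mathlib
import Cfsg.Agent.Lib.Helper50.HUPT.Defs

/-!
# HUPT package [CARD] (S3360): a finite nontrivial `ZMod q`-module has order `q ^ n`, `n > 0`.
-/

set_option autoImplicit false

universe u

namespace Cfsg.Agent.Lib.Helper26.HUPT

theorem pkgCard : Cfsg.Agent.Lib.Helper50.HUPT.PkgCard.{u} := by
  intro q _ V _ _ _ _
  have : Module.Finite (ZMod q) V := Module.Finite.of_finite
  refine ⟨Module.finrank (ZMod q) V, Module.finrank_pos, ?_⟩
  rw [Module.natCard_eq_pow_finrank (K := ZMod q) (V := V)]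
  simp

end Cfsg.Agent.Lib.Helper26.HUPT
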