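import Mathlib
import Cfsg.Agent.Lib.Helper50.HUPT.Defs

/-!
# HUPT package [ONE] (S3360): if `|V| = q` then the trivial subgroup is a normal cyclic
irreducible subgroup.
-/

set_option autoImplicit false

universe u v

namespace Cfsg.Agent.Lib.Helper26.HUPT

theorem pkgOne : Cfsg.Agent.Lib.Helper50.HUPT.PkgOne.{u, v} := by
  intro q _ V _ _ _ _ G _ _ ρ hV hNI
  apply hNI
  refine ⟨⊥, inferInstance, inferInstance, ?_⟩
  intro W _
  have hq : q.Prime := Fact.out
  have hdvd : Nat.card W ∣ q := by
    have h := AddSubgroup.card_addSubgroup_dvd_card W.toAddSubgroup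
    rw [hV] at h
    exact h
  rcases (Nat.dvd_prime hq).mp hdvd with h1 | h1
  · left
    have : Subsingleton W := (Nat.card_eq_one_iff_unique.mp h1).1
    exact Submodule.eq_bot_of_subsingleton
  · right
    have h2 : Nat.card W.toAddSubgroup = Nat.card V := by rw [hV]; exact h1
    have h3 := AddSubgroup.card_eq_iff_eq_top (H := W.toAddSubgroup) |>.mp h2
    rw [eq_top_iff]
    intro v _
    have : v ∈ W.toAddSubgroup := by rw [h3]; trivial
    exact this

end Cfsg.Agent.Lib.Helper26.HUPT
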